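import Cfsg.Agent.H647.Four

/-!
# Alternating groups: the class of a 5-cycle has size divisible by four (helper647)
-/

set_option autoImplicit false

namespace Cfsg.Agent.H647

open Equiv Equiv.Perm Subgroup

theorem four_alternating {n : ℕ} (hn : 5 ≤ n) : Four (alternatingGroup (Fin n)) := by
  classical
  have : Nontrivial (Fin n) := Fin.nontrivial_iff_two_le.2 (by omega)
  obtain ⟨g, hg⟩ : ∃ g : Perm (Fin n), g.cycleType = ({5} : Multiset ℕ) := by
    rw [exists_with_cycleType_iff]
    constructor
    · rw [Multiset.sum_singleton, Fintype.card_fin]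
      exact hn
    · intro a ha
      rw [Multiset.mem_singleton] at ha
      omega
  have hgA : g ∈ alternatingGroup (Fin n) := by
    rw [mem_alternatingGroup, sign_of_cycleType, hg]
    decide
  have hord : orderOf g = 5 := by
    rw [← lcm_cycleType, hg, Multiset.lcm_singleton]
    rfl
  set x : alternatingGroup (Fin n) := ⟨g, hgA⟩ with hx
  refine ⟨x, ⟨5, 1, by norm_num, by norm_num, ?_⟩, ?_⟩
  · rw [pow_one, ← hord, ← orderOf_coe]
  -- orders
  have hcS : Nat.card (centralizer ({g} : Set (Perm (Fin n)))) = (n - 5).factorial * 5 := by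
    rw [nat_card_centralizer, hg]
    simp
  have hdvd : Nat.card (centralizer ({x} : Set (alternatingGroup (Fin n)))) ∣
      Nat.card (centralizer ({g} : Set (Perm (Fin n)))) := by
    rw [← card_map_of_injective (K := centralizer ({x} : Set (alternatingGroup (Fin n))))
      (alternatingGroup (Fin n)).subtype_injective]
    refine card_dvd_of_le ?_
    rintro _ ⟨y, hy, rfl⟩
    have h1 := mem_centralizer_singleton_iff.1 hy
    rw [mem_centralizer_singleton_iff]
    exact congrArg Subtype.val h1
  obtain ⟨k, hk⟩ := hdvd
  have hidx : (centralizer ({x} : Set (alternatingGroup (Fin n)))).index *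
      Nat.card (centralizer ({x} : Set (alternatingGroup (Fin n)))) = Nat.card (alternatingGroup (Fin n)) :=
    index_mul_card _
  have h2 : 2 * Nat.card (alternatingGroup (Fin n)) = n.factorial := by
    rw [two_mul_nat_card_alternatingGroup, Nat.card_perm, Nat.card_eq_fintype_card, Fintype.card_fin]
  have h3 : n.factorial = Nat.choose n 5 * Nat.factorial 5 * (n - 5).factorial :=
    (Nat.choose_mul_factorial_mul_factorial hn).symm
  have h5 : Nat.factorial 5 = 120 := by decide
  set c := Nat.card (centralizer ({x} : Set (alternatingGroup (Fin n)))) with hc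
  have hc0 : 0 < c := Nat.card_pos
  rw [hcS] at hk
  refine ⟨3 * Nat.choose n 5 * k, ?_⟩
  apply Nat.eq_of_mul_eq_mul_right hc0
  apply Nat.eq_of_mul_eq_mul_left (show 0 < 2 by norm_num)
  rw [hidx, h2, h3, h5]
  calc n.choose 5 * 120 * (n - 5).factorial = 24 * n.choose 5 * ((n - 5).factorial * 5) := by ring
    _ = 24 * n.choose 5 * (c * k) := by rw [hk]
    _ = 2 * (4 * (3 * n.choose 5 * k) * c) := by ring

end Cfsg.Agent.H647
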