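import Cfsg.Agent.H647.Four
import Cfsg.Agent.H413.JOneLocal
import Cfsg.Agent.CpAut.SporThree.McL
import Cfsg.Agent.CpAut.SporThree.ON
import Cfsg.Agent.BpSpor.CoThreeFive
import Cfsg.Agent.R10.Close
import Cfsg.Agent.KFacts.FiTTh.Has
import Cfsg.Agent.KFacts.FiTTh.Cent

/-!
# Class sizes divisible by four: the sporadic groups which are not of even characteristic (helper647)
-/

set_option autoImplicit false

namespace Cfsg.Agent.H647

open Subgroup Cfsg

theorem four_j1 {G : Type*} [Group G] (h : Spor.IsoJ1 G) : Four G := by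
  obtain ⟨e⟩ := h
  refine Four.of_equiv e ?_
  have hfin := H413.JOneLocal.fin_J1
  refine four_of_prime (r := 19) (by rw [H413.JOneLocal.card_J1]; norm_num) (by norm_num) (by norm_num)
    (by rw [H413.JOneLocal.card_J1]; norm_num) fun t ht => ?_
  rw [H413.JOneLocal.card_cent ht]
  norm_num

theorem four_mcl {G : Type*} [Group G] (h : Spor.IsoMcL G) : Four G := by
  obtain ⟨hfin, -, hc, ⟨L⟩⟩ := Cfsg.Agent.TypeM.FactsMcL.facts h
  refine four_of_card (r := 3) (m := 3) (by norm_num) (by norm_num) (by rw [hc]; norm_num) (by rw [hc]; norm_num)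
    fun x hx => ?_
  exact CpAut.SporThree.McL.not_16 L hx

theorem four_on {G : Type*} [Group G] (h : Spor.IsoON G) : Four G := by
  obtain ⟨e⟩ := h
  refine Four.of_equiv e ?_
  have hfin := KFacts.ON.OneClass.finite_ON
  have hc := KFacts.ON.OneClass.card_ON
  refine four_of_card (r := 3) (m := 3) (by norm_num) (by norm_num) (by rw [hc]; norm_num) (by rw [hc]; norm_num)
    fun x hx => ?_
  exact CpAut.SporThree.ON.not_16 hx

theorem card_co3 : Nat.card Spor.Co3 = 495766656000 := by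
  rw [← Nat.card_congr SporRec.Co3.Model.equivCo3.toEquiv, SporRec.Co3.Chain.isCo3_G3.2]

theorem four_co3 {G : Type*} [Group G] (h : Spor.IsoCo3 G) : Four G := by
  obtain ⟨e⟩ := h
  refine Four.of_equiv e ?_
  have hc := card_co3
  have hfin : Finite Spor.Co3 := Nat.finite_of_card_ne_zero (by rw [hc]; norm_num)
  refine four_of_card (r := 5) (m := 5) (by norm_num) (by norm_num) (by rw [hc]; norm_num) (by rw [hc]; norm_num)
    fun x hx => ?_
  exact BpSpor.CoThreeFive.not_dvd_co3 hx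

theorem four_ly {G : Type*} [Group G] (h : Spor.IsoLy G) : Four G := by
  obtain ⟨e⟩ := h
  refine Four.of_equiv e ?_
  have hc := Cfsg.Agent.Ly.Setup.card_ly
  have hfin := Cfsg.Agent.Ly.Setup.finite_ly
  refine four_of_prime (r := 37) (by rw [hc]; norm_num) (by norm_num) (by norm_num)
    (by rw [hc]; norm_num) fun t ht => ?_
  obtain ⟨g, hg⟩ := R10.Close.one_class ht
  rw [← hg, CpAut.SporThree.Cent.card_centralizer_conj, R10.Close.cover_τ.1]
  norm_num

namespace Fi23

open Cfsg.Agent.Lib.PermNet Cfsg.Agent.Lib.PermNetFix Cfsg.Agent.Fischer.Fi23Nets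
open Cfsg.Agent.Fischer.Fi23Z Cfsg.Agent.Fischer.Fi23Hom Cfsg.Agent.Fischer.Fi23Rel
open Cfsg.Agent.Fischer Cfsg.Agent.Fischer.Fi23Class Cfsg.Agent.Fischer.Fi23Simple
open Cfsg.Agent.Fischer.Fi23OrbData
open Cfsg.Spor Cfsg.Spor.Fi23
open Cfsg.Agent.KFacts.FiTTh.Cent

/-- an element of order 17 commuting with `W` fixes the points -/
theorem fixed_of_order {W : Fi23} {Ds Xs : Set Fi23} {P : Finset ℕ} (hcard : P.card ≤ 3)
    (hW : ∀ p < 31671, rho W p = p → ∀ d ∈ Ds, rho d p = p)
    (hP : ∀ p < 31671, rho W p = p → (∀ x ∈ Xs, rho x p = p) → p ∈ P)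
    (hX : ∀ x ∈ Xs, IsConj z0 x) (hWX : ∀ x ∈ Xs, W * x = x * W) (hWD : ∀ d ∈ Ds, W * d = d * W)
    {y h : Fi23} (hy : y * W = W * y) (hd : h * z0 * h⁻¹ ∈ Ds) (ho : y ^ 17 = 1) :
    rho y (rho h 0) = rho h 0 := by
  have hmem : ∀ k : ℕ, rho (y ^ k) (rho h 0) ∈ P := by
    intro k
    have hk : y ^ k * W = W * y ^ k := (Commute.pow_left (show Commute y W from hy) k).eq
    exact stable (P := (P : Set ℕ)) hW hP hX hWX hWD hk hd
  have hex : ∃ i j : Fin 4, i < j ∧ rho (y ^ (i : ℕ)) (rho h 0) = rho (y ^ (j : ℕ)) (rho h 0) := by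
    by_contra hcon
    push Not at hcon
    have hinj : Function.Injective (fun i : Fin 4 => (⟨rho (y ^ (i : ℕ)) (rho h 0), hmem i⟩ : P)) := by
      intro i j hij
      have hij' := congrArg Subtype.val hij
      rcases lt_trichotomy i j with h1 | h1 | h1
      · exact absurd hij' (hcon i j h1)
      · exact h1
      · exact absurd hij'.symm (hcon j i h1)
    have := Fintype.card_le_of_injective _ hinj
    simp only [Fintype.card_fin, Fintype.card_coe] at this
    omega
  obtain ⟨i, j, hij, he⟩ := hex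
  have h18 : rho (y ^ 18) (rho h 0) = rho h 0 := by
    obtain ⟨m, hm1, hm2, hm⟩ : ∃ m : ℕ, 1 ≤ m ∧ m ≤ 3 ∧ rho (y ^ m) (rho h 0) = rho h 0 := by
      refine ⟨(j : ℕ) - i, by omega, by omega, ?_⟩
      have e : y ^ (j : ℕ) = y ^ (i : ℕ) * y ^ ((j : ℕ) - i) := by
        rw [← pow_add]; congr 1; omega
      rw [e, map_mul, Equiv.Perm.mul_apply] at he
      exact ((rho (y ^ (i : ℕ))).injective he).symm
    have hpow : ∀ k : ℕ, rho (y ^ (m * k)) (rho h 0) = rho h 0 := by
      intro k
      induction k with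
      | zero => simp
      | succ k ih => rw [Nat.mul_succ, pow_add, map_mul, Equiv.Perm.mul_apply, hm, ih]
    have hm3 : m = 1 ∨ m = 2 ∨ m = 3 := by omega
    rcases hm3 with rfl | rfl | rfl
    · exact hpow 18
    · exact hpow 9
    · exact hpow 6
  rw [show (18 : ℕ) = 1 + 17 from rfl, pow_add, pow_one, ho, mul_one] at h18
  exact h18

theorem not_dvd_K : ¬ 17 ∣ Nat.card (centralizer ({z0} : Set Fi23)) := by
  rw [← K_eq, card_K]
  norm_num

/-- an element of order 17 fixing the point 0 is trivial -/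
theorem eq_one_of_fix {y : Fi23} (hy : y ^ 17 = 1) (h0 : rho y 0 = 0) : y = 1 := by
  by_contra hne
  apply not_dvd_K
  have hfin : Finite Fi23 := Nat.finite_of_card_ne_zero (by rw [card_Fi23]; norm_num)
  have : Fact (Nat.Prime 17) := ⟨by norm_num⟩
  have h2 : orderOf y = 17 := orderOf_eq_prime hy hne
  have h1 : y ∈ centralizer ({z0} : Set Fi23) := mem_centralizer_singleton_iff.2 ((rho0_iff y).1 h0)
  rw [← h2, ← Subgroup.orderOf_mk y h1]
  exact orderOf_dvd_natCard _

theorem four : Four Fi23 := by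
  have hfin : Finite Fi23 := Nat.finite_of_card_ne_zero (by rw [card_Fi23]; norm_num)
  have h17 : Nat.Prime 17 := by norm_num
  have : Fact (Nat.Prime 17) := ⟨h17⟩
  obtain ⟨x, hx⟩ := exists_prime_orderOf_dvd_card' (G := Fi23) 17 (by rw [card_Fi23]; norm_num)
  refine four_of_no_inv (r := 17) (k := 1) (by rw [card_Fi23]; norm_num) h17 (by norm_num) (by rw [hx, pow_one]) ?_
  intro t ht htx
  have h1 : t * t = 1 := by
    have := pow_orderOf_eq_one t
    rwa [ht, pow_two] at this
  have h2 : t ≠ 1 := by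
    rintro rfl
    rw [orderOf_one] at ht
    omega
  have key : ∀ s : Fi23, IsConj t s → (∀ y : Fi23, y * s = s * y → y ^ 17 = 1 → rho y 0 = 0) → False := by
    intro s hs hys
    obtain ⟨g, hg⟩ := isConj_iff.1 hs
    have h3 : (g * x * g⁻¹) * s = s * (g * x * g⁻¹) := by
      rw [← hg]
      calc (g * x * g⁻¹) * (g * t * g⁻¹) = g * (x * t) * g⁻¹ := by group
        _ = g * (t * x) * g⁻¹ := by rw [htx]
        _ = _ := by group
    have h4 : (g * x * g⁻¹) ^ 17 = 1 := by
      rw [conj_pow, ← hx, pow_orderOf_eq_one]; group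
    have h5 := eq_one_of_fix h4 (hys _ h3 h4)
    have h6 : x = 1 := by
      have h7 : g * x * g⁻¹ = g * 1 * g⁻¹ := by rw [h5]; group
      have h8 := mul_right_cancel h7
      exact mul_left_cancel h8
    rw [h6, orderOf_one] at hx
    omega
  rcases KFacts.FiTTh.Has.inv t h1 h2 with h | h | h
  · refine key _ h fun y hy _ => (rho0_iff y).2 hy
  · refine key _ h fun y hy ho => ?_
    have f := fun (h : Fi23) (hd : h * z0 * h⁻¹ ∈ Ds2) =>
      fixed_of_order (P := {0, 11589}) (by decide) hW2 hP2 hX2 hWX2 hWD2 hy hd ho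
    have := f 1 (by rw [one_mul, inv_one, mul_one]; exact Or.inl rfl)
    simpa using this
  · refine key _ h fun y hy ho => ?_
    have f := fun (h : Fi23) (hd : h * z0 * h⁻¹ ∈ Ds3) =>
      fixed_of_order (P := {0, 8003, 11589}) (by decide) hW3 hP3 hX3 hWX3 hWD3 hy hd ho
    have := f 1 (by rw [one_mul, inv_one, mul_one]; exact Or.inl rfl)
    simpa using this

end Fi23

theorem four_fi23 {G : Type*} [Group G] (h : Spor.IsoFi23 G) : Four G := by
  obtain ⟨e⟩ := h
  exact Four.of_equiv e Fi23.four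

end Cfsg.Agent.H647
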