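import Cfsg.Agent.H647.FourSimple
import Cfsg.Agent.H647.FourEven
import Cfsg.Agent.H647.FourAlt
import Cfsg.Agent.H647.FourSpor
import Cfsg.Agent.H235.EvenAll
import Cfsg.Agent.S1765
import Cfsg.Agent.S0000

/-!
# Every non-abelian simple group has an odd order class of size divisible by four (helper647)

`four_of_simple` : a finite non-abelian simple group `S` satisfies `Four S`: some element of odd prime power order has
a conjugacy class of size divisible by four.
-/

set_option autoImplicit false

namespace Cfsg.Agent.H647

open Subgroup Cfsg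

universe u

theorem kproper (G : Type u) [Group G] [Finite G] : IsKProper G := by
  intro H _ H' N _ hs _
  have := hs
  exact Cfsg.Agent.S0000.result

theorem four_of_simple {S : Type u} [Group S] [Finite S] [IsSimpleGroup S] (hna : ¬ IsMulCommutative S) : Four S := by
  have h4 : 4 ∣ Nat.card S := four_dvd_of_simple hna
  obtain ⟨r, hr, hr2, hrS⟩ := exists_odd_prime hna
  have ev : IsOfEvenCharacteristic S → Four S := fun hE => four_of_even hE h4 hr hr2 hrS
  by_cases h2 : IsCharacteristicTwoType S
  · exact ev (H235.EvenAll.even_of_charTwoType h2)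
  have R := H235.EvenAll.evRows.{u}
  rcases S1765.result hna (kproper S) h2 with h | h | h | h | h | h | h | h | h | h | h | h | h | h | h |
    h | h | h | h | h
  · obtain ⟨⟨p, hp, hp2, h⟩, -⟩ := h
    exact four_lieOdd hna hp hp2 h
  · obtain ⟨n, hn, ⟨e⟩⟩ := h
    exact Four.of_equiv e (four_alternating (by omega))
  · exact ev (R.m12 S h)
  · exact four_j1 h
  · exact ev (R.j2 S h)
  · exact four_mcl h
  · exact four_ly h
  · exact ev (R.hs S h)
  · exact ev (R.he S h)
  · exact four_on h
  · exact ev (R.suz S h)
  · exact ev (R.ru S h)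
  · exact four_co3 h
  · exact ev (R.co1 S h)
  · exact ev (R.fi22 S h)
  · exact four_fi23 h
  · exact ev (R.fi24 S h)
  · exact ev (R.hn S h)
  · exact ev (R.ba S h)
  · exact ev (R.mo S h)

end Cfsg.Agent.H647
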